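import Mathlib
import Cfsg.Prelude.Def_TwoFusion

/-!
Direct decompositions of products of two-groups and of their even parts.
-/

set_option autoImplicit false

namespace CfsgLib.AltSylowDecomp

universe u v

/-- The group is an internal direct product of two non-trivial subgroups. -/
def Decomp (G : Type u) [Group G] : Prop :=
  ∃ A B : Subgroup G, A ≠ ⊥ ∧ B ≠ ⊥ ∧ Cfsg.IsInternalDirectProduct A B ⊤

variable {G : Type u} [Group G] {H : Type v} [Group H]

theorem exists_factor {A B S : Subgroup G} (h : Cfsg.IsInternalDirectProduct A B S) {g : G} (hg : g ∈ S) :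
    ∃ a ∈ A, ∃ b ∈ B, g = a * b := by
  obtain ⟨-, -, hc, -, hsup⟩ := h
  rw [← hsup, Subgroup.sup_eq_closure] at hg
  induction hg using Subgroup.closure_induction with
  | mem x hx =>
    rcases hx with hx | hx
    · exact ⟨x, hx, 1, one_mem _, by simp⟩
    · exact ⟨1, one_mem _, x, hx, by simp⟩
  | one => exact ⟨1, one_mem _, 1, one_mem _, by simp⟩
  | mul x y _ _ hx hy =>
    obtain ⟨a, ha, b, hb, rfl⟩ := hx
    obtain ⟨c, hc', d, hd, rfl⟩ := hy
    exact ⟨a * c, mul_mem ha hc', b * d, mul_mem hb hd, by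
      rw [mul_assoc a b, ← mul_assoc b c d, ← hc c hc' b hb]; group⟩
  | inv x _ hx =>
    obtain ⟨a, ha, b, hb, rfl⟩ := hx
    exact ⟨a⁻¹, inv_mem ha, b⁻¹, inv_mem hb, by rw [hc a ha b hb, mul_inv_rev]⟩

theorem decomp_congr (e : G ≃* H) (h : Decomp G) : Decomp H := by
  obtain ⟨A, B, hA, hB, -, -, hc, hi, hs⟩ := h
  refine ⟨A.map e.toMonoidHom, B.map e.toMonoidHom, ?_, ?_, le_top, le_top, ?_, ?_, ?_⟩
  · rwa [Ne, Subgroup.map_eq_bot_iff_of_injective _ e.injective]
  · rwa [Ne, Subgroup.map_eq_bot_iff_of_injective _ e.injective]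
  · rintro _ ⟨a, ha, rfl⟩ _ ⟨b, hb, rfl⟩
    rw [← map_mul, hc a ha b hb, map_mul]
  · rw [← Subgroup.map_inf _ _ _ e.injective, hi, Subgroup.map_bot]
  · rw [← Subgroup.map_sup, hs, ← MonoidHom.range_eq_map]
    exact MonoidHom.range_eq_top.2 e.surjective

theorem decomp_iff (P : Subgroup G) : Decomp P ↔
    ∃ A B : Subgroup G, A ≠ ⊥ ∧ B ≠ ⊥ ∧ Cfsg.IsInternalDirectProduct A B P := by
  constructor
  · rintro ⟨A, B, hA, hB, -, -, hc, hi, hs⟩
    refine ⟨A.map P.subtype, B.map P.subtype, ?_, ?_, Subgroup.map_subtype_le A, Subgroup.map_subtype_le B,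
      ?_, ?_, ?_⟩
    · rwa [Ne, Subgroup.map_eq_bot_iff_of_injective _ P.subtype_injective]
    · rwa [Ne, Subgroup.map_eq_bot_iff_of_injective _ P.subtype_injective]
    · rintro _ ⟨a, ha, rfl⟩ _ ⟨b, hb, rfl⟩
      exact congrArg Subtype.val (hc a ha b hb)
    · rw [← Subgroup.map_inf _ _ _ P.subtype_injective, hi, Subgroup.map_bot]
    · rw [← Subgroup.map_sup, hs, ← MonoidHom.range_eq_map, Subgroup.range_subtype]
  · rintro ⟨A, B, hA, hB, hAP, hBP, hc, hi, hs⟩
    refine ⟨A.subgroupOf P, B.subgroupOf P, ?_, ?_, le_top, le_top, ?_, ?_, ?_⟩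
    · intro h; exact hA ((Subgroup.subgroupOf_eq_bot.1 h).eq_bot_of_le hAP)
    · intro h; exact hB ((Subgroup.subgroupOf_eq_bot.1 h).eq_bot_of_le hBP)
    · exact fun a ha b hb => Subtype.ext (hc _ ha _ hb)
    · refine (Subgroup.eq_bot_iff_forall _).2 fun x hx => Subtype.ext ?_
      exact Subgroup.mem_bot.1 (hi ▸ (show (x : G) ∈ A ⊓ B from ⟨hx.1, hx.2⟩))
    · rw [← Subgroup.subgroupOf_sup hAP hBP, hs, Subgroup.subgroupOf_self]

/-- A two-group with centre of order at most two is indecomposable. -/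
theorem not_decomp_of_center [Finite G] (hG : IsPGroup 2 G) (hZ : Nat.card (Subgroup.center G) ≤ 2) :
    ¬ Decomp G := by
  rintro ⟨A, B, hA, hB, hd⟩
  haveI : Fact (Nat.Prime 2) := ⟨Nat.prime_two⟩
  haveI : Nontrivial A := (Subgroup.nontrivial_iff_ne_bot A).2 hA
  haveI : Nontrivial B := (Subgroup.nontrivial_iff_ne_bot B).2 hB
  have hc := hd.2.2.1
  haveI := (hG.to_subgroup A).center_nontrivial
  haveI := (hG.to_subgroup B).center_nontrivial
  obtain ⟨⟨⟨a, ha⟩, haZ⟩, ha1⟩ := exists_ne (1 : Subgroup.center A)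
  obtain ⟨⟨⟨b, hb⟩, hbZ⟩, hb1⟩ := exists_ne (1 : Subgroup.center B)
  have haG : a ∈ Subgroup.center G := Subgroup.mem_center_iff.2 fun g => by
    obtain ⟨x, hx, y, hy, rfl⟩ := exists_factor hd (Subgroup.mem_top g)
    have h1 : x * a = a * x := congrArg Subtype.val (Subgroup.mem_center_iff.1 haZ ⟨x, hx⟩)
    rw [mul_assoc, ← hc a ha y hy, ← mul_assoc, h1, mul_assoc]
  have hbG : b ∈ Subgroup.center G := Subgroup.mem_center_iff.2 fun g => by
    obtain ⟨x, hx, y, hy, rfl⟩ := exists_factor hd (Subgroup.mem_top g)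
    have h1 : y * b = b * y := congrArg Subtype.val (Subgroup.mem_center_iff.1 hbZ ⟨y, hy⟩)
    rw [mul_assoc, h1, ← mul_assoc, hc x hx b hb, mul_assoc]
  have ha' : a ≠ 1 := fun h => ha1 (Subtype.ext (Subtype.ext h))
  have hb' : b ≠ 1 := fun h => hb1 (Subtype.ext (Subtype.ext h))
  have hab : a ≠ b := fun h =>
    ha' (Subgroup.mem_bot.1 (hd.2.2.2.1 ▸ (show a ∈ A ⊓ B from ⟨ha, h ▸ hb⟩)))
  have h3 : Nat.card (Fin 3) ≤ Nat.card (Subgroup.center G) := by
    refine Nat.card_le_card_of_injective ![1, ⟨a, haG⟩, ⟨b, hbG⟩] ?_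
    intro i j h
    have h' := congrArg Subtype.val h
    fin_cases i <;> fin_cases j <;> simp at h' <;>
      first
        | rfl
        | exact absurd h' ha' | exact absurd h'.symm ha' | exact absurd h' hb' | exact absurd h'.symm hb'
        | exact absurd h' hab | exact absurd h'.symm hab
  rw [Nat.card_fin] at h3
  omega

/-- An elementary group of order four is decomposable. -/
theorem decomp_of_four [Finite G] (h4 : Nat.card G = 4) (h2 : ∀ g : G, g * g = 1) : Decomp G := by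
  haveI : Nontrivial G := Finite.one_lt_card_iff_nontrivial.1 (by omega)
  obtain ⟨a, ha⟩ := exists_ne (1 : G)
  have hord : ∀ g : G, g ≠ 1 → Nat.card (Subgroup.zpowers g) = 2 := fun g hg => by
    rw [Nat.card_zpowers]
    exact orderOf_eq_prime (by rw [pow_two]; exact h2 g) hg
  obtain ⟨b, hb⟩ : ∃ b, b ∉ Subgroup.zpowers a := by
    by_contra hc
    push Not at hc
    have := hord a ha
    rw [(Subgroup.eq_top_iff' _).2 hc, Subgroup.card_top] at this
    omega
  have hb1 : b ≠ 1 := fun h => hb (h ▸ one_mem _)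
  have hinv : ∀ x : G, x⁻¹ = x := fun x => inv_eq_of_mul_eq_one_right (h2 x)
  have hcomm : ∀ x y : G, x * y = y * x := fun x y => by rw [← hinv (x * y), mul_inv_rev, hinv, hinv]
  have hinf : Subgroup.zpowers a ⊓ Subgroup.zpowers b = ⊥ := by
    refine Subgroup.eq_bot_of_card_le _ ?_
    by_contra hlt
    push Not at hlt
    have h1 : Nat.card ↥(Subgroup.zpowers a ⊓ Subgroup.zpowers b) ≥ Nat.card (Subgroup.zpowers b) := by
      rw [hord b hb1]; omega
    have e := Subgroup.eq_of_le_of_card_ge inf_le_right h1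
    exact hb (inf_eq_right.1 e (Subgroup.mem_zpowers b))
  refine ⟨_, _, Subgroup.zpowers_ne_bot.2 ha, Subgroup.zpowers_ne_bot.2 hb1, le_top, le_top,
    fun x _ y _ => hcomm x y, hinf, ?_⟩
  refine Subgroup.eq_top_of_le_card _ ?_
  have hlt : Subgroup.zpowers a < Subgroup.zpowers a ⊔ Subgroup.zpowers b :=
    lt_of_le_of_ne le_sup_left fun e => hb (e ▸ Subgroup.mem_sup_right (Subgroup.mem_zpowers b))
  have hd := Subgroup.card_dvd_of_le hlt.le
  have hd' := Subgroup.card_subgroup_dvd_card (Subgroup.zpowers a ⊔ Subgroup.zpowers b)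
  have hne : Nat.card ↥(Subgroup.zpowers a ⊔ Subgroup.zpowers b) ≠ 2 := fun e =>
    hlt.ne (Subgroup.eq_of_le_of_card_ge hlt.le (by rw [hord a ha, e]))
  rw [hord a ha] at hd
  rw [h4] at hd' ⊢
  have := Nat.le_of_dvd (by norm_num) hd'
  interval_cases hk : Nat.card ↥(Subgroup.zpowers a ⊔ Subgroup.zpowers b) <;> omega

section Family

variable {ι : Type} [Fintype ι] [DecidableEq ι] {W : ι → Type v} [∀ i, Group (W i)]

/-- A product of at least two non-trivial groups is decomposable. -/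
theorem decomp_pi [Nontrivial ι] (hW : ∀ i, Nontrivial (W i)) : Decomp (∀ i, W i) := by
  obtain ⟨i, j, hij⟩ := exists_pair_ne ι
  let A : Subgroup (∀ k, W k) :=
    { carrier := {f | ∀ k, k ≠ i → f k = 1}
      one_mem' := fun k _ => rfl
      mul_mem' := fun {f g} hf hg k hk => by rw [Pi.mul_apply, hf k hk, hg k hk, one_mul]
      inv_mem' := fun {f} hf k hk => by rw [Pi.inv_apply, hf k hk, inv_one] }
  let B : Subgroup (∀ k, W k) :=
    { carrier := {f | f i = 1}
      one_mem' := rfl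
      mul_mem' := fun {f g} hf hg => by
        show f i * g i = 1; rw [show f i = 1 from hf, show g i = 1 from hg, one_mul]
      inv_mem' := fun {f} hf => by show (f i)⁻¹ = 1; rw [show f i = 1 from hf, inv_one] }
  refine ⟨A, B, ?_, ?_, le_top, le_top, fun f hf g hg => ?_, ?_, ?_⟩
  · intro h
    haveI := hW i
    obtain ⟨x, hx⟩ := exists_ne (1 : W i)
    have h1 : Pi.mulSingle i x ∈ A := fun k hk => Pi.mulSingle_eq_of_ne hk x
    rw [h, Subgroup.mem_bot] at h1
    exact hx (by simpa using congrFun h1 i)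
  · intro h
    haveI := hW j
    obtain ⟨x, hx⟩ := exists_ne (1 : W j)
    have h1 : Pi.mulSingle j x ∈ B := Pi.mulSingle_eq_of_ne hij x
    rw [h, Subgroup.mem_bot] at h1
    exact hx (by simpa using congrFun h1 j)
  · funext k
    by_cases hk : k = i
    · subst hk; rw [Pi.mul_apply, Pi.mul_apply, show g k = 1 from hg, one_mul, mul_one]
    · rw [Pi.mul_apply, Pi.mul_apply, hf k hk, one_mul, mul_one]
  · refine (Subgroup.eq_bot_iff_forall _).2 fun f hf => funext fun k => ?_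
    by_cases hk : k = i
    · subst hk; exact hf.2
    · exact hf.1 k hk
  · refine (Subgroup.eq_top_iff' _).2 fun f => ?_
    have e : f = Pi.mulSingle i (f i) * Function.update f i 1 := by
      funext k
      by_cases hk : k = i
      · subst hk; simp
      · simp [hk]
    rw [e]
    exact mul_mem (Subgroup.mem_sup_left fun k hk => Pi.mulSingle_eq_of_ne hk _)
      (Subgroup.mem_sup_right (show Function.update f i 1 i = 1 from Function.update_self _ _ _))

/-- The total sign of a family. -/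
def totalSign (ε : ∀ i, W i →* ℤˣ) : (∀ i, W i) →* ℤˣ where
  toFun f := ∏ i, ε i (f i)
  map_one' := by simp
  map_mul' f g := by simp [Finset.prod_mul_distrib]

/-- A block: a cyclic element with centraliser itself, inverted by another element, of odd sign. -/
def IsBlock {X : Type v} [Group X] (ε : X →* ℤˣ) (c : X) : Prop :=
  (∀ x, x * c = c * x → x ∈ Subgroup.zpowers c) ∧ (∃ r, r * c * r⁻¹ = c⁻¹) ∧ ε c = -1 ∧
    ∃ s, orderOf c = 2 ^ (s + 2)

theorem IsBlock.central {X : Type v} [Group X] {ε : X →* ℤˣ} {c : X} (h : IsBlock ε c) {z : X}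
    (hz : z ∈ Subgroup.center X) : ε z = 1 ∧ ∃ k : ℤ, z = c ^ (2 * k) := by
  obtain ⟨hC, ⟨r, hr⟩, hε, s, hs⟩ := h
  obtain ⟨j, rfl⟩ := Subgroup.mem_zpowers_iff.1 (hC z (Subgroup.mem_center_iff.1 hz c).symm)
  have h1 : r * c ^ j * r⁻¹ = c ^ j := by rw [Subgroup.mem_center_iff.1 hz r, mul_inv_cancel_right]
  rw [← conj_zpow, hr, inv_zpow'] at h1
  have h2 : ((orderOf c : ℤ)) ∣ j - -j := Int.modEq_iff_dvd.1 (zpow_eq_zpow_iff_modEq.1 h1)
  have h3 : (4 : ℤ) ∣ j - -j := (dvd_trans ⟨2 ^ s, by rw [hs, pow_add]; push_cast; ring⟩ h2)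
  obtain ⟨k, hk⟩ : (2 : ℤ) ∣ j := by omega
  refine ⟨?_, k, by rw [hk]⟩
  rw [hk, map_zpow, hε, zpow_mul]
  simp

theorem IsBlock.card_center {X : Type v} [Group X] [Finite X] {ε : X →* ℤˣ} {c : X} (h : IsBlock ε c) :
    Nat.card (Subgroup.center X) ≤ 2 := by
  classical
  obtain ⟨hC, ⟨r, hr⟩, hε, s, hs⟩ := h
  have key : ∀ z ∈ Subgroup.center X, z ∈ Subgroup.zpowers c ∧ z ^ 2 = 1 := fun z hz => by
    have hzc := hC z (Subgroup.mem_center_iff.1 hz c).symm
    refine ⟨hzc, ?_⟩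
    obtain ⟨j, rfl⟩ := Subgroup.mem_zpowers_iff.1 hzc
    have h1 : r * c ^ j * r⁻¹ = c ^ j := by rw [Subgroup.mem_center_iff.1 hz r, mul_inv_cancel_right]
    rw [← conj_zpow, hr, inv_zpow] at h1
    rw [pow_two]
    nth_rewrite 2 [← h1]
    exact mul_inv_cancel _
  haveI := Fintype.ofFinite (Subgroup.zpowers c)
  calc Nat.card (Subgroup.center X) ≤ Nat.card {x : Subgroup.zpowers c // x ^ 2 = 1} :=
        Nat.card_le_card_of_injective (fun z => ⟨⟨z.1, (key z.1 z.2).1⟩, Subtype.ext (key z.1 z.2).2⟩)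
          fun a b h => Subtype.ext (congrArg (fun w : {x : Subgroup.zpowers c // x ^ 2 = 1} => (w.1 : X)) h)
    _ ≤ 2 := by
        rw [Nat.card_eq_fintype_card, Fintype.card_subtype]
        exact IsCyclic.card_pow_eq_one_le (by norm_num)

variable {ε : ∀ i, W i →* ℤˣ} {c : ∀ i, W i}

theorem not_decomp_even [Nontrivial ι] (hb : ∀ i, IsBlock (ε i) (c i)) : ¬ Decomp (totalSign ε).ker := by
  rintro ⟨A, B, hA, hB, hd⟩
  have hcomm := hd.2.2.1
  have hsingle : ∀ i (x : W i), totalSign ε (Pi.mulSingle i x) = ε i x := fun i x => by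
    show ∏ k, ε k (Pi.mulSingle i x k) = _
    rw [Finset.prod_eq_single i (fun k _ hk => by rw [Pi.mulSingle_eq_of_ne hk, map_one])
      (fun h => absurd (Finset.mem_univ i) h), Pi.mulSingle_eq_same]
  -- compensating by another coordinate
  have hsurj : ∀ i (x : W i), ∃ f : (totalSign ε).ker, (f : ∀ k, W k) i = x := by
    intro i x
    obtain ⟨j, hj⟩ := exists_ne i
    rcases Int.units_eq_one_or (ε i x) with h | h
    · exact ⟨⟨Pi.mulSingle i x, by rw [MonoidHom.mem_ker, hsingle, h]⟩, Pi.mulSingle_eq_same i x⟩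
    · refine ⟨⟨Pi.mulSingle i x * Pi.mulSingle j (c j), ?_⟩, ?_⟩
      · rw [MonoidHom.mem_ker, map_mul, hsingle, hsingle, h, (hb j).2.2.1]; rfl
      · show Pi.mulSingle i x i * Pi.mulSingle j (c j) i = x
        rw [Pi.mulSingle_eq_same, Pi.mulSingle_eq_of_ne hj.symm, mul_one]
  let π : ∀ i, (totalSign ε).ker →* W i := fun i =>
    (Pi.evalMonoidHom W i).comp (totalSign ε).ker.subtype
  have hcases : ∀ i, (∀ a ∈ A, π i a ∈ Subgroup.center (W i)) ∨ (∀ b ∈ B, π i b ∈ Subgroup.center (W i)) := by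
    intro i
    obtain ⟨f, hf⟩ := hsurj i (c i)
    obtain ⟨x, hx, y, hy, hxy⟩ := exists_factor hd (Subgroup.mem_top f)
    have hc' : c i = π i x * π i y := by rw [← map_mul, ← hxy]; exact hf.symm
    have hxy' : π i x * π i y = π i y * π i x := by rw [← map_mul, hcomm x hx y hy, map_mul]
    obtain ⟨hC, -, -, s, hs⟩ := hb i
    obtain ⟨m, hm⟩ := Subgroup.mem_zpowers_iff.1 (hC (π i x) (by rw [hc', mul_assoc, ← hxy']))
    have hm' : c i ^ (1 - m) = π i y := by
      rw [sub_eq_neg_add, zpow_add, zpow_neg, hm, zpow_one, hc', inv_mul_cancel_left]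
    have gen : ∀ (S T : Subgroup (totalSign ε).ker), (∀ a ∈ S, ∀ b ∈ T, a * b = b * a) → ∀ g ∈ S, ∀ k : ℤ,
        ¬ (2 : ℤ) ∣ k → π i g = c i ^ k → (∀ g, ∃ a ∈ S, ∃ b ∈ T, g = a * b) →
        ∀ b ∈ T, π i b ∈ Subgroup.center (W i) := by
      intro S T hST g hg k hk hgk hfac b hb'
      have hco : Int.gcd k (orderOf (c i)) = 1 := by
        rw [hs, Int.gcd_eq_natAbs, Int.natAbs_natCast]
        refine Nat.Coprime.pow_right _ ((Nat.prime_two.coprime_iff_not_dvd.2 fun h => hk ?_).symm)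
        exact Int.natCast_dvd.2 h
      obtain ⟨u, w, huw⟩ : ∃ u w : ℤ, u * k + w * (orderOf (c i) : ℤ) = 1 :=
        Int.isCoprime_iff_gcd_eq_one.2 hco
      have hgen : ∀ b ∈ T, π i b ∈ Subgroup.zpowers (c i) := fun b hb' => by
        refine hC _ ?_
        have h1 : Commute (π i b) (π i g) := by
          show _ * _ = _ * _
          rw [← map_mul, ← map_mul, hST g hg b hb']
        have h2 := h1.zpow_right u
        rw [hgk, ← zpow_mul] at h2
        have e : c i ^ (k * u) = c i := by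
          rw [show k * u = 1 + (orderOf (c i) : ℤ) * (-w) by linarith [huw], zpow_add, zpow_one, zpow_mul,
            zpow_natCast, pow_orderOf_eq_one, one_zpow, mul_one]
        rw [e] at h2
        exact h2
      refine Subgroup.mem_center_iff.2 fun v => ?_
      obtain ⟨f, rfl⟩ : ∃ f, π i f = v := hsurj i v
      obtain ⟨p, hp, q, hq, rfl⟩ := hfac f
      obtain ⟨j1, hj1⟩ := Subgroup.mem_zpowers_iff.1 (hgen q hq)
      obtain ⟨j2, hj2⟩ := Subgroup.mem_zpowers_iff.1 (hgen b hb')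
      have e1 : π i p * π i b = π i b * π i p := by rw [← map_mul, hST p hp b hb', map_mul]
      have e2 : π i q * π i b = π i b * π i q := by rw [← hj1, ← hj2, ← zpow_add, ← zpow_add, add_comm]
      rw [map_mul, mul_assoc, e2, ← mul_assoc, e1, mul_assoc]
    by_cases hodd : (2 : ℤ) ∣ m
    · refine Or.inl (gen B A (fun b hb' a ha => (hcomm a ha b hb').symm) y hy (1 - m) (by omega) hm'.symm ?_)
      intro g
      obtain ⟨a, ha, b, hb', rfl⟩ := exists_factor hd (Subgroup.mem_top g)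
      exact ⟨b, hb', a, ha, hcomm a ha b hb'⟩
    · exact Or.inr (gen A B hcomm x hx m hodd hm.symm fun g => exists_factor hd (Subgroup.mem_top g))
  -- every central coordinate lies in the derived group
  have hA' : ∀ (S T : Subgroup (totalSign ε).ker), (∀ a ∈ S, ∀ b ∈ T, a * b = b * a) →
      (∀ g, ∃ a ∈ S, ∃ b ∈ T, g = a * b) → S ⊓ T = ⊥ → (∀ i, ∀ b ∈ T, π i b ∈ Subgroup.center (W i)) →
      T = ⊥ := by
    intro S T hST hfac hint hTZ
    have hTc : ∀ b ∈ T, ∀ g, g * b = b * g := fun b hb' g =>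
      Subtype.ext (funext fun i => Subgroup.mem_center_iff.1 (hTZ i b hb') _)
    have hcom : ∀ f g, f * g * f⁻¹ * g⁻¹ ∈ S := by
      intro f g
      obtain ⟨a, ha, b, hb', rfl⟩ := hfac f
      obtain ⟨a', ha', b', hb'', rfl⟩ := hfac g
      have e : a * b * (a' * b') * (a * b)⁻¹ * (a' * b')⁻¹ = a * a' * a⁻¹ * a'⁻¹ := by
        calc a * b * (a' * b') * (a * b)⁻¹ * (a' * b')⁻¹
            = a * (b * (a' * b')) * b⁻¹ * a⁻¹ * (a' * b')⁻¹ := by group
          _ = a * ((a' * b') * b) * b⁻¹ * a⁻¹ * (a' * b')⁻¹ := by rw [hTc b hb' (a' * b')]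
          _ = a * a' * (b' * a⁻¹) * b'⁻¹ * a'⁻¹ := by group
          _ = a * a' * (a⁻¹ * b') * b'⁻¹ * a'⁻¹ := by rw [hTc b' hb'' a⁻¹]
          _ = a * a' * a⁻¹ * a'⁻¹ := by group
      rw [e]
      exact mul_mem (mul_mem (mul_mem ha ha') (inv_mem ha)) (inv_mem ha')
    have hz : ∀ i (z : W i), z ∈ Subgroup.center (W i) → ∃ g ∈ S, (g : ∀ k, W k) = Pi.mulSingle i z := by
      intro i z hz
      obtain ⟨-, k, rfl⟩ := (hb i).central hz
      obtain ⟨-, ⟨r, hr⟩, hεc, -⟩ := hb i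
      obtain ⟨j, hj⟩ := exists_ne i
      obtain ⟨e, he⟩ : ∃ e : ℤ, ε i r = (-1) ^ e := by
        rcases Int.units_eq_one_or (ε i r) with h | h
        · exact ⟨0, by rw [h, zpow_zero]⟩
        · exact ⟨1, by rw [h, zpow_one]⟩
      let F : ∀ k, W k := Pi.mulSingle i (c i ^ k) * Pi.mulSingle j (c j ^ k)
      let R : ∀ k, W k := Pi.mulSingle i r * Pi.mulSingle j (c j ^ e)
      have hF : F ∈ (totalSign ε).ker := by
        rw [MonoidHom.mem_ker, map_mul, hsingle, hsingle, map_zpow, map_zpow, hεc, (hb j).2.2.1, ← mul_zpow]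
        simp
      have hR : R ∈ (totalSign ε).ker := by
        rw [MonoidHom.mem_ker, map_mul, hsingle, hsingle, map_zpow, (hb j).2.2.1, he, ← mul_zpow]
        simp
      refine ⟨_, hcom ⟨F, hF⟩ ⟨R, hR⟩, ?_⟩
      show F * R * F⁻¹ * R⁻¹ = _
      funext l
      simp only [F, R, Pi.mul_apply, Pi.inv_apply]
      by_cases hl : l = i
      · subst hl
        rw [Pi.mulSingle_eq_same, Pi.mulSingle_eq_of_ne hj.symm, Pi.mulSingle_eq_same, Pi.mulSingle_eq_same,
          Pi.mulSingle_eq_of_ne hj.symm, mul_one, mul_one, mul_assoc, mul_assoc, ← mul_assoc r,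
          ← zpow_neg, ← conj_zpow, hr, inv_zpow', neg_neg, ← zpow_add, two_mul]
      · rw [Pi.mulSingle_eq_of_ne hl, Pi.mulSingle_eq_of_ne hl, Pi.mulSingle_eq_of_ne hl, one_mul, one_mul]
        by_cases hlj : l = j
        · subst hlj
          rw [Pi.mulSingle_eq_same, Pi.mulSingle_eq_same, ← zpow_add, ← zpow_neg, ← zpow_neg, ← zpow_add, ← zpow_add]
          simp
        · rw [Pi.mulSingle_eq_of_ne hlj, Pi.mulSingle_eq_of_ne hlj]; simp
    refine (Subgroup.eq_bot_iff_forall T).2 fun b hb' => ?_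
    have hs : ∀ s : Finset ι, ∃ g ∈ S, ∀ k, (g : ∀ k, W k) k = if k ∈ s then π k b else 1 := by
      intro s
      induction s using Finset.induction_on with
      | empty => exact ⟨1, one_mem _, fun k => by simp⟩
      | @insert i s hi ih =>
        obtain ⟨g, hg, hgk⟩ := ih
        obtain ⟨g', hg', hgk'⟩ := hz i _ (hTZ i b hb')
        refine ⟨g' * g, mul_mem hg' hg, fun k => ?_⟩
        show (g' : ∀ k, W k) k * (g : ∀ k, W k) k = _
        rw [hgk', hgk]
        by_cases hk : k = i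
        · subst hk; simp [hi]
        · rw [Pi.mulSingle_eq_of_ne hk, one_mul]; simp [hk]
    obtain ⟨g, hg, hgk⟩ := hs Finset.univ
    have : g = b := Subtype.ext (funext fun k => by rw [hgk, if_pos (Finset.mem_univ k)]; rfl)
    exact Subgroup.mem_bot.1 (hint ▸ (show b ∈ S ⊓ T from ⟨this ▸ hg, hb'⟩))
  have hfac := fun g => exists_factor hd (Subgroup.mem_top g)
  by_cases hall : ∀ i, ∀ a ∈ A, π i a ∈ Subgroup.center (W i)
  · refine hA (hA' B A (fun b hb' a ha => (hcomm a ha b hb').symm) ?_ (by rw [inf_comm]; exact hd.2.2.2.1) hall)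
    intro g
    obtain ⟨a, ha, b, hb', rfl⟩ := hfac g
    exact ⟨b, hb', a, ha, hcomm a ha b hb'⟩
  by_cases hall' : ∀ i, ∀ b ∈ B, π i b ∈ Subgroup.center (W i)
  · exact hB (hA' A B hcomm hfac hd.2.2.2.1 hall')
  classical
  let J : Finset ι := Finset.univ.filter fun i => ∀ a ∈ A, π i a ∈ Subgroup.center (W i)
  obtain ⟨j, hj⟩ := not_forall.1 hall
  obtain ⟨i, hi⟩ := not_forall.1 hall'
  have hiJ : i ∈ J := Finset.mem_filter.2 ⟨Finset.mem_univ _, (hcases i).resolve_right hi⟩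
  have hjJ : j ∉ J := fun h => hj (Finset.mem_filter.1 h).2
  have hij : i ≠ j := fun h => hjJ (h ▸ hiJ)
  let g : (totalSign ε).ker := ⟨Pi.mulSingle i (c i) * Pi.mulSingle j (c j), by
    rw [MonoidHom.mem_ker, map_mul, hsingle, hsingle, (hb i).2.2.1, (hb j).2.2.1]; rfl⟩
  obtain ⟨a, ha, b, hb', hab⟩ := hfac g
  have h1 : ∏ k ∈ J, ε k (π k g) = -1 := by
    rw [Finset.prod_eq_single i ?_ (fun h => absurd hiJ h)]
    · show ε i (Pi.mulSingle i (c i) i * Pi.mulSingle j (c j) i) = -1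
      rw [Pi.mulSingle_eq_same, Pi.mulSingle_eq_of_ne hij, mul_one, (hb i).2.2.1]
    · intro k hk hki
      show ε k (Pi.mulSingle i (c i) k * Pi.mulSingle j (c j) k) = 1
      rw [Pi.mulSingle_eq_of_ne hki, Pi.mulSingle_eq_of_ne (by rintro rfl; exact hjJ hk), mul_one, map_one]
  have h2 : ∏ k ∈ J, ε k (π k g) = 1 := by
    have e1 : ∀ k ∈ J, ε k (π k g) = ε k (π k b) := fun k hk => by
      rw [hab, map_mul, map_mul, ((hb k).central ((Finset.mem_filter.1 hk).2 a ha)).1, one_mul]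
    rw [Finset.prod_congr rfl e1, Finset.prod_subset (Finset.subset_univ J) fun k _ hk =>
      ((hb k).central (((hcases k).resolve_left fun h => hk (Finset.mem_filter.2 ⟨Finset.mem_univ _, h⟩)) b hb')).1]
    exact b.2
  exact absurd (h2.symm.trans h1) (by decide)

end Family

end CfsgLib.AltSylowDecomp
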