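import Cfsg.Agent.AltSylowDecomp.Abstract

/-!
Dihedral two-subgroups on a power of two points.
-/

set_option autoImplicit false

namespace CfsgLib.AltSylowDecomp

open Equiv

variable {h : ℕ} [NeZero h]

/-- The translation. -/
def rot (h : ℕ) [NeZero h] : Perm (Fin h) := Equiv.addRight (1 : Fin h)

/-- The inversion. -/
def flp (h : ℕ) [NeZero h] : Perm (Fin h) := Equiv.neg (Fin h)

open Fin.CommRing in
theorem rot_zpow_apply (k : ℕ) (a : Fin h) : (rot h ^ k) a = a + (k : Fin h) := by
  induction k with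
  | zero => simp
  | succ k ih => rw [pow_succ', Perm.mul_apply, ih]; simp [rot, add_assoc]

open Fin.CommRing in
theorem mem_zpowers_of_commute {x : Perm (Fin h)} (hx : x * rot h = rot h * x) :
    x ∈ Subgroup.zpowers (rot h) := by
  have h1 : ∀ a, x (a + 1) = x a + 1 := fun a => by
    have := DFunLike.congr_fun hx a
    simpa [rot] using this
  have h2 : ∀ k : ℕ, x (k : Fin h) = x 0 + k := by
    intro k
    induction k with
    | zero => simp
    | succ k ih => rw [Nat.cast_succ, h1, ih, add_assoc]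
  refine Subgroup.mem_zpowers_iff.2 ⟨((x 0).val : ℤ), Equiv.ext fun a => ?_⟩
  rw [zpow_natCast, rot_zpow_apply, Fin.cast_val_eq_self]
  have h3 := h2 a.val
  rw [Fin.cast_val_eq_self] at h3
  rw [h3, add_comm]

open Fin.CommRing in
theorem orderOf_rot : orderOf (rot h) = h := by
  refine (orderOf_eq_iff (Nat.pos_of_ne_zero (NeZero.ne h))).2 ⟨Equiv.ext fun a => ?_, fun m hm hm0 e => ?_⟩
  · rw [rot_zpow_apply, Fin.natCast_self, add_zero]; rfl
  · have := DFunLike.congr_fun e (0 : Fin h)
    rw [rot_zpow_apply, zero_add] at this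
    have h2 : ((m : Fin h)).val = 0 := by rw [this]; rfl
    rw [Fin.val_natCast, Nat.mod_eq_of_lt hm] at h2
    omega

open Fin.CommRing in
theorem flp_conj : flp h * rot h * (flp h)⁻¹ = (rot h)⁻¹ := by
  refine eq_inv_of_mul_eq_one_left (Equiv.ext fun a => ?_)
  simp [flp, rot, Perm.mul_apply, Equiv.Perm.inv_def]

open Fin.CommRing in
theorem flp_sq : flp h * flp h = 1 := Equiv.ext fun a => by simp [flp, Perm.mul_apply]

theorem sign_rot {r : ℕ} : Perm.sign (rot (2 ^ (r + 1))) = -1 := by
  obtain ⟨m, hm⟩ : ∃ m, 2 ^ (r + 1) = m + 1 := ⟨2 ^ (r + 1) - 1, by have := Nat.one_le_two_pow (n := r + 1); omega⟩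
  have hodd : Odd m := by
    rw [Nat.odd_iff]
    have : 2 ^ (r + 1) % 2 = 0 := by rw [pow_succ]; omega
    omega
  have key : ∀ (n : ℕ) [NeZero n], n = m + 1 → Perm.sign (rot n) = -1 := by
    intro n _ e
    subst e
    have : rot (m + 1) = finRotate (m + 1) := Equiv.ext fun a => by simp [rot]
    rw [this, sign_finRotate]
    exact hodd.neg_one_pow
  exact key _ hm

/-- An odd inverting involution. -/
def ref (h : ℕ) [NeZero h] : Perm (Fin h) :=
  if Perm.sign (flp h) = -1 then flp h else flp h * rot h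

theorem ref_conj : ref h * rot h * (ref h)⁻¹ = (rot h)⁻¹ := by
  unfold ref
  split_ifs
  · exact flp_conj
  · rw [← flp_conj]; group

theorem ref_sq : ref h * ref h = 1 := by
  unfold ref
  split_ifs
  · exact flp_sq
  · calc flp h * rot h * (flp h * rot h) = (flp h * rot h * (flp h)⁻¹) * (flp h * flp h) * rot h := by group
      _ = 1 := by rw [flp_conj, flp_sq]; group

theorem sign_ref {r : ℕ} : Perm.sign (ref (2 ^ (r + 1))) = -1 := by
  unfold ref
  split_ifs with hs
  · exact hs
  · rw [map_mul, sign_rot, (Int.units_eq_one_or _).resolve_right hs, one_mul]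

/-- The dihedral group. -/
def dih (h : ℕ) [NeZero h] : Subgroup (Perm (Fin h)) :=
  Subgroup.zpowers (rot h) ⊔ Subgroup.zpowers (ref h)

theorem ref_normalizes : ref h ∈ Subgroup.normalizer ((Subgroup.zpowers (rot h) : Subgroup _) : Set (Perm (Fin h))) := by
  refine Subgroup.mem_normalizer_iff.2 fun x => ⟨fun hx => ?_, fun hx => ?_⟩
  · obtain ⟨k, rfl⟩ := Subgroup.mem_zpowers_iff.1 hx
    rw [← conj_zpow, ref_conj]
    exact Subgroup.zpow_mem _ (Subgroup.inv_mem _ (Subgroup.mem_zpowers _)) k
  · obtain ⟨k, hk⟩ := Subgroup.mem_zpowers_iff.1 hx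
    have e : ref h * ref h = 1 := ref_sq
    have hi : (ref h)⁻¹ = ref h := inv_eq_of_mul_eq_one_right e
    have : x = ref h * rot h ^ k * (ref h)⁻¹ := by
      rw [hk, hi]
      calc x = (ref h * ref h) * x * (ref h * ref h) := by rw [e]; group
        _ = _ := by group
    rw [this, ← conj_zpow, ref_conj]
    exact Subgroup.zpow_mem _ (Subgroup.inv_mem _ (Subgroup.mem_zpowers _)) k

theorem isPGroup_dih {r : ℕ} : IsPGroup 2 (dih (2 ^ r)) := by
  haveI : Fact (Nat.Prime 2) := ⟨Nat.prime_two⟩
  refine IsPGroup.to_sup_of_normal_left' (IsPGroup.of_card (n := r) (by rw [Nat.card_zpowers, orderOf_rot])) ?_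
    (Subgroup.zpowers_le.2 ref_normalizes)
  rintro ⟨x, hx⟩
  obtain ⟨k, rfl⟩ := Subgroup.mem_zpowers_iff.1 hx
  exact ⟨1, Subtype.ext (by
    show (ref (2 ^ r) ^ k) ^ (2 ^ 1) = 1
    rw [pow_one, ← zpow_natCast, ← zpow_mul, mul_comm, zpow_mul, zpow_natCast, pow_two, ref_sq, one_zpow])⟩

/-- A Sylow subgroup of the symmetric group on a power of two points is a block. -/
theorem exists_block (r : ℕ) : ∃ (S : Sylow 2 (Perm (Fin (2 ^ (r + 2))))) (c : ↥(S : Subgroup (Perm (Fin (2 ^ (r + 2)))))),
    IsBlock (Perm.sign.comp (S : Subgroup (Perm (Fin (2 ^ (r + 2))))).subtype) c := by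
  haveI : Fact (Nat.Prime 2) := ⟨Nat.prime_two⟩
  obtain ⟨S, hS⟩ := (isPGroup_dih (r := r + 2)).exists_le_sylow
  have hc : rot (2 ^ (r + 2)) ∈ (S : Subgroup _) := hS (Subgroup.mem_sup_left (Subgroup.mem_zpowers _))
  have hr : ref (2 ^ (r + 2)) ∈ (S : Subgroup _) := hS (Subgroup.mem_sup_right (Subgroup.mem_zpowers _))
  refine ⟨S, ⟨_, hc⟩, fun x hx => ?_, ⟨⟨_, hr⟩, Subtype.ext ref_conj⟩, (by show Perm.sign (rot (2 ^ (r + 2))) = -1; exact sign_rot (r := r + 1)), r, ?_⟩
  · obtain ⟨k, hk⟩ := Subgroup.mem_zpowers_iff.1 (mem_zpowers_of_commute (congrArg Subtype.val hx))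
    exact Subgroup.mem_zpowers_iff.2 ⟨k, Subtype.ext (by rw [SubgroupClass.coe_zpow]; exact hk)⟩
  · rw [Subgroup.orderOf_mk, orderOf_rot]

/-- Two halves. -/
def halves (h : ℕ) : (Bool → Perm (Fin h)) →* Perm (Bool × Fin h) where
  toFun u := Equiv.prodCongrRight u
  map_one' := Equiv.ext fun _ => rfl
  map_mul' _ _ := Equiv.ext fun _ => rfl

/-- The exchange of the halves. -/
def swp (h : ℕ) : Perm (Bool × Fin h) := Equiv.prodCongrLeft fun _ => Equiv.swap false true

theorem swp_apply (x : Bool) (a : Fin h) : swp h (x, a) = (!x, a) := by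
  cases x <;> simp [swp]

theorem swp_sq : swp h * swp h = 1 := Equiv.ext fun ⟨x, a⟩ => by
  rw [Perm.mul_apply, swp_apply, swp_apply, Bool.not_not]; rfl

theorem swp_conj (u : Bool → Perm (Fin h)) : swp h * halves h u * swp h = halves h (fun x => u (!x)) :=
  Equiv.ext fun ⟨x, a⟩ => by
    show swp h (halves h u (swp h (x, a))) = (x, u (!x) a)
    rw [swp_apply x a]
    show swp h (!x, u (!x) a) = _
    rw [swp_apply, Bool.not_not]

theorem sign_halves (u : Bool → Perm (Fin h)) :
    Perm.sign (halves h u) = Perm.sign (u true) * Perm.sign (u false) := by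
  show Perm.sign (Equiv.prodCongrRight u) = _
  rw [Perm.sign_prodCongrRight, Fintype.prod_bool]

theorem sign_swp (hh : Even h) : Perm.sign (swp h) = 1 := by
  show Perm.sign (Equiv.prodCongrLeft fun _ => Equiv.swap false true) = _
  rw [Perm.sign_prodCongrLeft, Finset.prod_const, Perm.sign_swap (by decide), Finset.card_univ, Fintype.card_fin]
  exact hh.neg_one_pow

/-- A Sylow subgroup of the alternating group on a power of two points has centre of order at most two. -/
theorem exists_alt_center (r : ℕ) : ∃ T : Sylow 2 (alternatingGroup (Bool × Fin (2 ^ (r + 2)))),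
    Nat.card (Subgroup.center ↥(T : Subgroup (alternatingGroup (Bool × Fin (2 ^ (r + 2)))))) ≤ 2 := by
  classical
  haveI : Fact (Nat.Prime 2) := ⟨Nat.prime_two⟩
  set N := 2 ^ (r + 2) with hN
  let D : Subgroup (Bool → Perm (Fin N)) :=
    { carrier := {u | ∀ x, u x ∈ dih N}
      one_mem' := fun _ => one_mem _
      mul_mem' := fun hu hv x => mul_mem (hu x) (hv x)
      inv_mem' := fun hu x => inv_mem (hu x) }
  have hDp : IsPGroup 2 D := by
    intro u
    have hp := isPGroup_dih (r := r + 2)
    obtain ⟨k1, h1⟩ := hp ⟨u.1 true, u.2 true⟩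
    obtain ⟨k2, h2⟩ := hp ⟨u.1 false, u.2 false⟩
    refine ⟨k1 + k2, Subtype.ext (funext fun x => ?_)⟩
    show (u.1 x) ^ (2 ^ (k1 + k2)) = 1
    cases x
    · rw [pow_add, mul_comm, pow_mul, show u.1 false ^ (2 ^ k2) = 1 from congrArg Subtype.val h2, one_pow]
    · rw [pow_add, pow_mul, show u.1 true ^ (2 ^ k1) = 1 from congrArg Subtype.val h1, one_pow]
  have hnorm : Subgroup.zpowers (swp N) ≤ Subgroup.normalizer ((D.map (halves N) : Subgroup _) : Set _) := by
    rw [Subgroup.zpowers_le]
    have hi : (swp N)⁻¹ = swp N := inv_eq_of_mul_eq_one_right swp_sq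
    have h1 : ∀ x ∈ D.map (halves N), swp N * x * (swp N)⁻¹ ∈ D.map (halves N) := by
      rintro _ ⟨u, hu, rfl⟩
      rw [hi, swp_conj]
      exact ⟨_, fun x => hu (!x), rfl⟩
    refine Subgroup.mem_normalizer_iff.2 fun x => ⟨h1 x, fun hx => ?_⟩
    have h2 := h1 _ hx
    rw [hi, show swp N * (swp N * x * swp N) * swp N = (swp N * swp N) * x * (swp N * swp N) by group, swp_sq,
      one_mul, mul_one] at h2
    exact h2
  have hKp : IsPGroup 2 ↥(D.map (halves N) ⊔ Subgroup.zpowers (swp N)) := by
    refine IsPGroup.to_sup_of_normal_left' (hDp.map (halves N)) ?_ hnorm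
    rintro ⟨x, hx⟩
    obtain ⟨k, rfl⟩ := Subgroup.mem_zpowers_iff.1 hx
    exact ⟨1, Subtype.ext (by
      show (swp N ^ k) ^ (2 ^ 1) = 1
      rw [pow_one, ← zpow_natCast, ← zpow_mul, mul_comm, zpow_mul, zpow_natCast, pow_two, swp_sq, one_zpow])⟩
  set K := (D.map (halves N) ⊔ Subgroup.zpowers (swp N)).subgroupOf (alternatingGroup (Bool × Fin N))
  obtain ⟨T, hT⟩ := (IsPGroup.of_injective hKp
    ((alternatingGroup (Bool × Fin N)).subtype.subgroupComap (D.map (halves N) ⊔ Subgroup.zpowers (swp N)))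
    (fun a b h => Subtype.ext (Subtype.ext (congrArg Subtype.val h :)))
    : IsPGroup 2 K).exists_le_sylow
  refine ⟨T, ?_⟩
  have hrot : rot N ∈ dih N := Subgroup.mem_sup_left (Subgroup.mem_zpowers _)
  have href : ref N ∈ dih N := Subgroup.mem_sup_right (Subgroup.mem_zpowers _)
  let fu : Bool → Bool → Perm (Fin N) := fun b x => if x = b then rot N else ref N
  have hfu : ∀ b, halves N (fu b) ∈ alternatingGroup (Bool × Fin N) := fun b => by
    rw [Perm.mem_alternatingGroup, sign_halves]
    have hsr : Perm.sign (rot N) = -1 := sign_rot (r := r + 1)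
    have hsf : Perm.sign (ref N) = -1 := sign_ref (r := r + 1)
    cases b <;> simp [fu, hsr, hsf]
  have hfuT : ∀ b, (⟨_, hfu b⟩ : alternatingGroup (Bool × Fin N)) ∈ (T : Subgroup (alternatingGroup (Bool × Fin N))) := fun b =>
    hT (Subgroup.mem_subgroupOf.2 (Subgroup.mem_sup_left ⟨fu b, fun x => by
      show (if x = b then rot N else ref N) ∈ dih N
      split_ifs <;> assumption, rfl⟩))
  have hs : swp N ∈ alternatingGroup (Bool × Fin N) := by
    rw [Perm.mem_alternatingGroup]
    exact sign_swp (by rw [hN, Nat.even_pow]; exact ⟨even_two, by omega⟩)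
  have hsT : (⟨_, hs⟩ : alternatingGroup (Bool × Fin N)) ∈ (T : Subgroup (alternatingGroup (Bool × Fin N))) :=
    hT (Subgroup.mem_subgroupOf.2 (Subgroup.mem_sup_right (Subgroup.mem_zpowers _)))
  have key : ∀ z : Subgroup.center ↥(T : Subgroup (alternatingGroup (Bool × Fin N))),
      ∃ v : {v : Subgroup.zpowers (rot N) // v ^ 2 = 1},
        ((z.1.1.1 : Perm (Bool × Fin N))) = halves N (fun _ => (v.1 : Perm (Fin N))) := by
    rintro ⟨z, hz⟩
    set Z : Perm (Bool × Fin N) := z.1.1
    have hcf : ∀ b, Z * halves N (fu b) = halves N (fu b) * Z := fun b =>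
      congrArg (fun w : ↥(T : Subgroup (alternatingGroup (Bool × Fin N))) => (w.1.1 : Perm (Bool × Fin N)))
        (Subgroup.mem_center_iff.1 hz ⟨_, hfuT b⟩).symm
    have hcs : Z * swp N = swp N * Z :=
      congrArg (fun w : ↥(T : Subgroup (alternatingGroup (Bool × Fin N))) => (w.1.1 : Perm (Bool × Fin N)))
        (Subgroup.mem_center_iff.1 hz ⟨_, hsT⟩).symm
    have hrefap : ∀ c, ref N (ref N c) = c := fun c => by
      rw [← Perm.mul_apply, ref_sq]; rfl
    have hne : ∀ a, rot N (rot N a) ≠ a := by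
      intro a e
      have h2 : (rot N ^ 2) a = a := by rw [pow_two, Perm.mul_apply]; exact e
      have : rot N ^ 2 = 1 := by
        refine Equiv.ext fun b => ?_
        obtain ⟨k, rfl⟩ : ∃ k : ℕ, (rot N ^ k) a = b := ⟨((b - a : Fin N)).val, by
          rw [rot_zpow_apply, Fin.cast_val_eq_self]; abel⟩
        rw [← Perm.mul_apply, (Commute.pow_pow_self (rot N) 2 k).eq, Perm.mul_apply, h2]; rfl
      have := orderOf_dvd_of_pow_eq_one this
      rw [orderOf_rot, hN] at this
      have h4 : 4 ≤ 2 ^ (r + 2) := by rw [pow_add]; have := Nat.one_le_two_pow (n := r); omega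
      have := Nat.le_of_dvd two_pos this
      omega
    have hpres : ∀ x a, (Z (x, a)).1 = x := by
      intro x a
      by_contra hc
      obtain ⟨y, b, hyb⟩ : ∃ y b, Z (x, a) = (y, b) := ⟨_, _, rfl⟩
      rw [hyb] at hc
      have e : Z (halves N (fu x) (halves N (fu x) (x, a))) = halves N (fu x) (halves N (fu x) (Z (x, a))) := by
        rw [← Perm.mul_apply Z, hcf, Perm.mul_apply, ← Perm.mul_apply Z, hcf, Perm.mul_apply]
      rw [hyb] at e
      have e' : halves N (fu x) (halves N (fu x) (y, b)) = (y, b) := by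
        show (y, fu x y (fu x y b)) = _
        simp only [fu, if_neg hc, hrefap]
      rw [e', ← hyb] at e
      have e2 := Z.injective e
      have e3 : (x, rot N (rot N a)) = (x, a) := by
        rw [← e2]
        show _ = (x, fu x x (fu x x a))
        simp [fu]
      exact hne a (congrArg Prod.snd e3)
    let u : Bool → Fin N → Fin N := fun x a => (Z (x, a)).2
    have hu : ∀ x a, Z (x, a) = (x, u x a) := fun x a => Prod.ext (hpres x a) rfl
    have hub : ∀ x, Function.Bijective (u x) := fun x => by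
      refine Finite.injective_iff_bijective.1 fun a b hab => ?_
      exact congrArg Prod.snd (Z.injective ((hu x a).trans (hab ▸ (hu x b).symm)))
    have huc : ∀ b x a, u x (fu b x a) = fu b x (u x a) := by
      intro b x a
      have e := DFunLike.congr_fun (hcf b) (x, a)
      rw [Perm.mul_apply, Perm.mul_apply] at e
      have e' : Z (x, fu b x a) = halves N (fu b) (Z (x, a)) := e
      rw [hu x a, hu x (fu b x a)] at e'
      exact congrArg Prod.snd e'
    have hus : ∀ a, u true a = u false a := by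
      intro a
      have e := DFunLike.congr_fun hcs (false, a)
      rw [Perm.mul_apply, Perm.mul_apply, swp_apply false a, Bool.not_false, hu true a, hu false a, swp_apply] at e
      exact (congrArg Prod.snd e :)
    let U : Perm (Fin N) := Equiv.ofBijective _ (hub true)
    have hUc : U * rot N = rot N * U := Equiv.ext fun a => by
      have := huc true true a
      simp only [fu, if_true] at this
      exact this
    have hUr : U * ref N = ref N * U := Equiv.ext fun a => by
      have := huc false true a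
      simp only [fu, if_neg (by decide : ¬ true = false)] at this
      exact this
    have hUm := mem_zpowers_of_commute hUc
    have hU2 : U ^ 2 = 1 := by
      obtain ⟨k, hk⟩ := Subgroup.mem_zpowers_iff.1 hUm
      have h1 : ref N * U * (ref N)⁻¹ = U := by rw [← hUr, mul_inv_cancel_right]
      rw [← hk, ← conj_zpow, ref_conj, inv_zpow] at h1
      rw [pow_two]
      nth_rewrite 2 [← hk]
      rw [← h1, hk, mul_inv_cancel]
    refine ⟨⟨⟨U, hUm⟩, Subtype.ext hU2⟩, Equiv.ext fun ⟨x, a⟩ => ?_⟩
    show Z (x, a) = (x, u true a)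
    cases x
    · rw [hu, hus]
    · exact hu true a
  choose v hv using key
  haveI := Fintype.ofFinite (Subgroup.zpowers (rot N))
  calc Nat.card (Subgroup.center ↥(T : Subgroup (alternatingGroup (Bool × Fin N))))
      ≤ Nat.card {x : Subgroup.zpowers (rot N) // x ^ 2 = 1} :=
        Nat.card_le_card_of_injective v fun a b h =>
          Subtype.ext (Subtype.ext (Subtype.ext (by rw [hv a, hv b, h])))
    _ ≤ 2 := by
        rw [Nat.card_eq_fintype_card, Fintype.card_subtype]
        exact IsCyclic.card_pow_eq_one_le (by norm_num)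

end CfsgLib.AltSylowDecomp
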