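import Cfsg.Agent.AltSylowDecomp.Cycle

/-!
When a Sylow two-subgroup of an alternating group is directly decomposable.
-/

set_option autoImplicit false

namespace CfsgLib.AltSylowDecomp

open Equiv

/-- The sign of a permutation acting fibrewise. -/
theorem sign_sigma {ι : Type*} [Fintype ι] [DecidableEq ι] {β : ι → Type*} [∀ i, Fintype (β i)]
    [∀ i, DecidableEq (β i)] (u : ∀ i, Perm (β i)) :
    Perm.sign (Equiv.sigmaCongrRight u) = ∏ i, Perm.sign (u i) := by
  let χ : (∀ i, Perm (β i)) →* ℤˣ := Perm.sign.comp (Perm.sigmaCongrRightHom β)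
  have hone : ∀ i (σ : Perm (β i)), χ (Pi.mulSingle i σ) = Perm.sign σ := by
    intro i σ
    induction σ using Perm.swap_induction_on with
    | one => rw [Pi.mulSingle_one, map_one, map_one]
    | swap_mul g a b hab ih =>
      rw [Pi.mulSingle_mul, map_mul, map_mul, ih]
      congr 1
      have e : Equiv.sigmaCongrRight (Pi.mulSingle i (Equiv.swap a b) : ∀ j, Perm (β j)) =
          Equiv.swap (⟨i, a⟩ : Σ j, β j) ⟨i, b⟩ := by
        refine Equiv.ext fun ⟨j, x⟩ => ?_
        show (⟨j, (Pi.mulSingle i (Equiv.swap a b) : ∀ j, Perm (β j)) j x⟩ : Σ j, β j) = _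
        by_cases hj : j = i
        · subst hj
          rw [Pi.mulSingle_eq_same, Equiv.swap_apply_def, Equiv.swap_apply_def]
          by_cases h1 : x = a
          · simp [h1]
          · by_cases h2 : x = b
            · subst h2; simp [h1]
            · simp [h1, h2]
        · rw [Pi.mulSingle_eq_of_ne hj, Equiv.swap_apply_of_ne_of_ne]
          · rfl
          · intro h; exact hj (congrArg Sigma.fst h)
          · intro h; exact hj (congrArg Sigma.fst h)
      show Perm.sign (Equiv.sigmaCongrRight _) = _
      rw [e, Perm.sign_swap hab, Perm.sign_swap (fun h => hab (eq_of_heq (Sigma.mk.inj_iff.1 h).2))]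
  have key : ∀ (s : Finset ι) (u : ∀ i, Perm (β i)), (∀ i ∉ s, u i = 1) → χ u = ∏ i ∈ s, Perm.sign (u i) := by
    intro s
    induction s using Finset.induction_on with
    | empty =>
      intro u hu
      rw [show u = 1 from funext fun i => hu i (Finset.notMem_empty i), map_one, Finset.prod_empty]
    | @insert i s hi ih =>
      intro u hu
      have e : u = Pi.mulSingle i (u i) * Function.update u i 1 := by
        funext k
        by_cases hk : k = i
        · subst hk; simp
        · simp [hk]
      conv_lhs => rw [e]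
      rw [map_mul, hone, ih _ (fun k hk => ?_), Finset.prod_insert hi]
      · congr 1
        refine Finset.prod_congr rfl fun k hk => ?_
        rw [Function.update_of_ne (fun h : k = i => hi (h ▸ hk))]
      · by_cases hki : k = i
        · subst hki; rw [Function.update_self]
        · rw [Function.update_of_ne hki]
          exact hu k (by simp [hki, hk])
  exact key Finset.univ u fun i hi => absurd (Finset.mem_univ i) hi

theorem two_adic_factorial (n : ℕ) : n.factorial.factorization 2 + n.bitIndices.length = n := by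
  induction n using Nat.strong_induction_on with
  | _ n ih =>
    rcases Nat.eq_zero_or_pos n with rfl | hn
    · simp
    have ih' := ih (n / 2) (by omega)
    have h2 : (2 * (n / 2)).factorial.factorization 2 = n / 2 + (n / 2).factorial.factorization 2 := by
      rw [Nat.factorization_def _ Nat.prime_two, Nat.factorization_def _ Nat.prime_two, padicValNat_factorial_mul,
        add_comm]
    rcases Nat.mod_two_eq_zero_or_one n with h | h
    · have e : n = 2 * (n / 2) := by omega
      rw [e, Nat.bitIndices_two_mul, List.length_map, h2]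
      omega
    · have e : n = 2 * (n / 2) + 1 := by omega
      rw [e, Nat.bitIndices_two_mul_add_one, List.length_cons, List.length_map, Nat.factorial_succ,
        Nat.factorization_mul (by omega) (Nat.factorial_ne_zero _), Finsupp.add_apply,
        Nat.factorization_eq_zero_of_not_dvd (show ¬ 2 ∣ 2 * (n / 2) + 1 by omega), h2]
      omega

theorem card_sylow {H : Type*} [Group H] [Finite H] (P : Sylow 2 H) :
    Nat.card (P : Subgroup H) = 2 ^ (Nat.card H).factorization 2 := by
  haveI : Fact (Nat.Prime 2) := ⟨Nat.prime_two⟩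
  exact P.card_eq_multiplicity

theorem sylow_equiv_of_injective {X H : Type*} [Group X] [Group H] [Finite H] (f : X →* H)
    (hf : Function.Injective f) (hc : Nat.card X = 2 ^ (Nat.card H).factorization 2) (P : Sylow 2 H) :
    Nonempty (X ≃* (P : Subgroup H)) := by
  haveI : Fact (Nat.Prime 2) := ⟨Nat.prime_two⟩
  have e := MonoidHom.ofInjective hf
  let Q : Sylow 2 H := Sylow.ofCard f.range (by rw [← Nat.card_congr e.toEquiv, hc])
  exact ⟨(e.trans (MulEquiv.subgroupCongr (Sylow.coe_ofCard _ _).symm)).trans (Q.equiv P)⟩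

theorem sylow_transfer {G H : Type*} [Group G] [Finite G] [Group H] [Finite H] (f : G →* H)
    (hf : Function.Injective f) (hv : (Nat.card G).factorization 2 = (Nat.card H).factorization 2)
    (Q : Sylow 2 G) (P : Sylow 2 H) : Nonempty ((Q : Subgroup G) ≃* (P : Subgroup H)) :=
  sylow_equiv_of_injective (f.comp (Q : Subgroup G).subtype) (hf.comp Subtype.val_injective)
    (by rw [card_sylow, hv]) P

theorem card_perm_fin (n : ℕ) : Nat.card (Perm (Fin n)) = n.factorial := by
  rw [Nat.card_eq_fintype_card, Fintype.card_perm, Fintype.card_fin]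

theorem two_adic_alt {α : Type*} [Fintype α] [DecidableEq α] [Nontrivial α] :
    (Nat.card (alternatingGroup α)).factorization 2 + 1 = (Fintype.card α).factorial.factorization 2 := by
  rw [← Fintype.card_perm, ← two_mul_card_alternatingGroup, Nat.card_eq_fintype_card,
    Nat.factorization_mul two_ne_zero Fintype.card_ne_zero, Finsupp.add_apply, Nat.prime_two.factorization_self,
    add_comm]

/-- A Sylow subgroup of a symmetric group on a multiple of four points as a product of blocks. -/
theorem exists_product (n : ℕ) (h4 : 4 ∣ n) :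
    ∀ P : Sylow 2 (Perm (Fin n)),
    ∀ Q : Sylow 2 (alternatingGroup (Fin n)), 0 < n →
      (n.bitIndices.length = 1 → ¬ Decomp (P : Subgroup (Perm (Fin n)))) ∧
      (2 ≤ n.bitIndices.length → Decomp (P : Subgroup (Perm (Fin n))) ∧
        ¬ Decomp (Q : Subgroup (alternatingGroup (Fin n)))) := by
  classical
  intro P Q hn0
  haveI : Fact (Nat.Prime 2) := ⟨Nat.prime_two⟩
  set I : Finset ℕ := n.bitIndices.toFinset with hI
  have hnd : n.bitIndices.Nodup := Nat.bitIndices_nodup
  have hsum : ∑ i ∈ I, 2 ^ i = n := by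
    rw [hI, List.sum_toFinset _ hnd]
    exact Nat.twoPowSum_bitIndices n
  have hIc : I.card = n.bitIndices.length := List.toFinset_card_of_nodup hnd
  have h2le : ∀ i : I, ∃ r, (i : ℕ) = r + 2 := by
    rintro ⟨i, hi⟩
    refine ⟨i - 2, ?_⟩
    by_contra hne
    obtain ⟨m, rfl⟩ := h4
    rw [hI, List.mem_toFinset, show 4 * m = 2 * (2 * m) by ring, Nat.bitIndices_two_mul, List.mem_map] at hi
    obtain ⟨j, hj, rfl⟩ := hi
    rw [Nat.bitIndices_two_mul, List.mem_map] at hj
    obtain ⟨k, -, rfl⟩ := hj
    simp at hne
  choose r hr using h2le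
  choose S c hb using fun i : I => exists_block (r i)
  let W : I → Type := fun i => ↥(S i : Subgroup (Perm (Fin (2 ^ (r i + 2)))))
  let ε : ∀ i, W i →* ℤˣ := fun i => Perm.sign.comp (S i : Subgroup (Perm (Fin (2 ^ (r i + 2))))).subtype
  have hcardX : Fintype.card (Σ i : I, Fin (2 ^ (r i + 2))) = n := by
    rw [Fintype.card_sigma]
    simp only [Fintype.card_fin, ← hr]
    rw [Finset.sum_coe_sort I fun i => 2 ^ i, hsum]
  let eX := Fintype.equivFinOfCardEq hcardX
  let f : (∀ i, W i) →* Perm (Fin n) :=
    (eX.permCongrHom.toMonoidHom.comp (Equiv.Perm.sigmaCongrRightHom fun i : I => Fin (2 ^ (r i + 2)))).comp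
      { toFun := fun u i => (u i : Perm (Fin (2 ^ (r i + 2))))
        map_one' := rfl
        map_mul' := fun _ _ => rfl }
  have hf : Function.Injective f := by
    intro u v h
    have h1 := Equiv.Perm.sigmaCongrRightHom_injective (eX.permCongrHom.injective h)
    exact funext fun i => Subtype.ext (congrFun h1 i)
  have hsign : ∀ u, Perm.sign (f u) = totalSign ε u := by
    intro u
    show Perm.sign (eX.permCongr (Equiv.sigmaCongrRight fun i => (u i : Perm (Fin (2 ^ (r i + 2)))))) = _
    rw [Perm.sign_permCongr, sign_sigma]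
    rfl
  have hcard : Nat.card (∀ i, W i) = 2 ^ (Nat.card (Perm (Fin n))).factorization 2 := by
    rw [Nat.card_pi, card_perm_fin]
    have e : ∀ i : I, Nat.card (W i) = 2 ^ (2 ^ (r i + 2) - 1) := fun i => by
      show Nat.card (S i : Subgroup (Perm (Fin (2 ^ (r i + 2))))) = _
      rw [card_sylow, card_perm_fin]
      congr 1
      have := two_adic_factorial (2 ^ (r i + 2))
      rw [Nat.bitIndices_two_pow, List.length_singleton] at this
      omega
    simp only [e]
    rw [Finset.prod_pow_eq_pow_sum]
    congr 1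
    have h1 : ∑ i : I, (2 ^ (r i + 2) - 1) + I.card = n := by
      have h2 : ∀ i : I, 2 ^ (r i + 2) - 1 + 1 = 2 ^ (i : ℕ) := fun i => by
        rw [hr i]; exact Nat.sub_add_cancel Nat.one_le_two_pow
      have h3 : ∑ i : I, (2 ^ (r i + 2) - 1 + 1) = n := by
        simp only [h2]
        rw [Finset.sum_coe_sort I fun i => 2 ^ i, hsum]
      rw [Finset.sum_add_distrib, Finset.sum_const, Finset.card_univ, Fintype.card_coe, smul_eq_mul, mul_one] at h3
      exact h3
    have := two_adic_factorial n
    omega
  obtain ⟨eP⟩ := sylow_equiv_of_injective f hf hcard P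
  constructor
  · intro h1 hd
    obtain ⟨i, hi⟩ := Finset.card_eq_one.1 (hIc.trans h1)
    haveI : Unique I := ⟨⟨⟨i, by rw [hi]; exact Finset.mem_singleton_self i⟩⟩, fun j => Subtype.ext (by
      have := j.2; simp only [hi, Finset.mem_singleton] at this; exact this)⟩
    exact not_decomp_of_center (S default).isPGroup' ((hb default).card_center)
      (decomp_congr (MulEquiv.piUnique W) (decomp_congr eP.symm hd))
  intro h2
  haveI : Nontrivial I := Fintype.one_lt_card_iff_nontrivial.1 (by rw [Fintype.card_coe]; omega)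
  constructor
  · refine decomp_congr eP (decomp_pi fun i => ⟨⟨c i, 1, fun h => ?_⟩⟩)
    have := congrArg (ε i) h
    rw [(hb i).2.2.1, map_one] at this
    exact absurd this (by decide)
  let g : (totalSign ε).ker →* alternatingGroup (Fin n) :=
    (f.comp (totalSign ε).ker.subtype).codRestrict _ fun u =>
      Perm.mem_alternatingGroup.2 (by show Perm.sign (f u) = 1; rw [hsign]; exact u.2)
  have hg : Function.Injective g := fun u v h => Subtype.ext (hf (congrArg Subtype.val h))
  haveI : Nontrivial (Fin n) := Fin.nontrivial_iff_two_le.2 (by omega)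
  have hgcard : Nat.card (totalSign ε).ker = 2 ^ (Nat.card (alternatingGroup (Fin n))).factorization 2 := by
    have h1 := (totalSign ε).ker.card_mul_index
    obtain ⟨i⟩ : Nonempty I := inferInstance
    have hsurj : Function.Surjective (totalSign ε) := by
      intro x
      rcases Int.units_eq_one_or x with rfl | rfl
      · exact ⟨1, map_one _⟩
      · refine ⟨Pi.mulSingle i (c i), ?_⟩
        show ∏ k, ε k (Pi.mulSingle i (c i) k) = -1
        rw [Finset.prod_eq_single i (fun k _ hk => by rw [Pi.mulSingle_eq_of_ne hk, map_one])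
          (fun h => absurd (Finset.mem_univ i) h), Pi.mulSingle_eq_same]
        exact (hb i).2.2.1
    rw [Subgroup.index_ker, MonoidHom.range_eq_top.2 hsurj, Subgroup.card_top, hcard,
      show Nat.card ℤˣ = 2 by simp [Nat.card_eq_fintype_card], card_perm_fin] at h1
    have h2' := two_adic_alt (α := Fin n)
    rw [Fintype.card_fin] at h2'
    rw [← h2', pow_succ] at h1
    exact Nat.eq_of_mul_eq_mul_right two_pos h1
  obtain ⟨eQ⟩ := sylow_equiv_of_injective g hg hgcard Q
  exact fun hd => not_decomp_even hb (decomp_congr eQ.symm hd)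

theorem alt_power (r : ℕ) {m : ℕ} (hm : m = 2 ^ (r + 3)) (Q : Sylow 2 (alternatingGroup (Fin m))) :
    ¬ Decomp (Q : Subgroup (alternatingGroup (Fin m))) := by
  subst hm
  intro hd
  haveI : Fact (Nat.Prime 2) := ⟨Nat.prime_two⟩
  obtain ⟨T, hT⟩ := exists_alt_center r
  have e : Bool × Fin (2 ^ (r + 2)) ≃ Fin (2 ^ (r + 3)) :=
    Fintype.equivFinOfCardEq (by simp only [Fintype.card_prod, Fintype.card_bool, Fintype.card_fin]; ring)
  let f : alternatingGroup (Bool × Fin (2 ^ (r + 2))) →* alternatingGroup (Fin (2 ^ (r + 3))) :=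
    (e.permCongrHom.toMonoidHom.comp (alternatingGroup _).subtype).codRestrict _ fun u =>
      Perm.mem_alternatingGroup.2 (by
        show Perm.sign (e.permCongr u.1) = 1
        rw [Perm.sign_permCongr]; exact u.2)
  have hf : Function.Injective f := fun u v h =>
    Subtype.ext (e.permCongrHom.injective (congrArg Subtype.val h :))
  haveI : Nontrivial (Fin (2 ^ (r + 3))) := Fin.nontrivial_iff_two_le.2 (Nat.le_self_pow (by omega) 2)
  obtain ⟨eT⟩ := sylow_transfer f hf (by
    have h1 := two_adic_alt (α := Bool × Fin (2 ^ (r + 2)))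
    have h2 := two_adic_alt (α := Fin (2 ^ (r + 3)))
    rw [Fintype.card_prod, Fintype.card_bool, Fintype.card_fin, show 2 * 2 ^ (r + 2) = 2 ^ (r + 3) by ring] at h1
    rw [Fintype.card_fin] at h2
    omega) T Q
  exact not_decomp_of_center T.isPGroup' hT (decomp_congr eT.symm hd)

theorem alt_four (Q : Sylow 2 (alternatingGroup (Fin 4))) : Decomp (Q : Subgroup (alternatingGroup (Fin 4))) := by
  haveI : Fact (Nat.Prime 2) := ⟨Nat.prime_two⟩
  have hcA : Nat.card (alternatingGroup (Fin 4)) = 12 := by
    have h := two_mul_card_alternatingGroup (α := Fin 4)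
    rw [Fintype.card_perm, Fintype.card_fin] at h
    rw [Nat.card_eq_fintype_card]
    norm_num [Nat.factorial] at h ⊢
    omega
  have h4 : Nat.card (Q : Subgroup (alternatingGroup (Fin 4))) = 4 := by
    rw [card_sylow, hcA, show (12 : ℕ) = 2 ^ 2 * 3 from rfl,
      Nat.factorization_mul (by norm_num) (by norm_num), Finsupp.add_apply,
      Nat.Prime.factorization_pow Nat.prime_two, Finsupp.single_eq_same,
      Nat.factorization_eq_zero_of_not_dvd (show ¬ 2 ∣ 3 by norm_num)]
    rfl
  refine decomp_of_four h4 fun g => ?_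
  have key : ∀ x : alternatingGroup (Fin 4), x ^ 4 = 1 → x * x = 1 := by decide +kernel
  have h := pow_card_eq_one' (x := g)
  rw [h4] at h
  exact Subtype.ext (key g.1 (congrArg Subtype.val h))

theorem decomp_iff_alt (n : ℕ) (hn : 4 ≤ n) (P : Sylow 2 (alternatingGroup (Fin n))) :
    Decomp (P : Subgroup (alternatingGroup (Fin n))) ↔
      (n = 4 ∨ n = 5 ∨ ((n % 4 = 2 ∨ n % 4 = 3) ∧ ∀ r : ℕ, 4 * (n / 4) ≠ 2 ^ r)) := by
  classical
  haveI : Fact (Nat.Prime 2) := ⟨Nat.prime_two⟩
  obtain ⟨k, j, hj, rfl⟩ : ∃ k j, j < 4 ∧ n = 4 * k + j := ⟨n / 4, n % 4, Nat.mod_lt _ (by norm_num), by omega⟩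
  have hk : 0 < k := by omega
  rw [show (4 * k + j) % 4 = j by omega, show (4 * k + j) / 4 = k by omega]
  have hbits : ∀ r : ℕ, (4 * k = 2 ^ r ↔ (4 * k).bitIndices = [r]) := fun r =>
    ⟨fun h => by rw [h, Nat.bitIndices_two_pow], fun h => by
      have := Nat.twoPowSum_bitIndices (4 * k)
      rw [h] at this
      simpa using this.symm⟩
  have hlen : 1 ≤ (4 * k).bitIndices.length := by
    rcases hl : (4 * k).bitIndices with _ | ⟨a, l⟩
    · have := Nat.twoPowSum_bitIndices (4 * k)
      rw [hl] at this
      simp at this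
      omega
    · simp
  have hpow : (4 * k).bitIndices.length = 1 ↔ ∃ r, 4 * k = 2 ^ r := by
    rw [List.length_eq_one_iff]
    exact exists_congr fun r => (hbits r).symm
  haveI : Nontrivial (Fin (4 * k + j)) := Fin.nontrivial_iff_two_le.2 (by omega)
  haveI : Nontrivial (Fin (4 * k)) := Fin.nontrivial_iff_two_le.2 (by omega)
  have hvn := two_adic_alt (α := Fin (4 * k + j))
  have hv4 := two_adic_alt (α := Fin (4 * k))
  rw [Fintype.card_fin] at hvn hv4
  have f4 := two_adic_factorial (4 * k)
  have fn := two_adic_factorial (4 * k + j)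
  have hlenj : (4 * k + j).bitIndices.length = (4 * k).bitIndices.length + j.bitIndices.length := by
    have b2 : (Nat.bitIndices 2).length = 1 := by
      rw [show (2 : ℕ) = 2 ^ 1 from rfl, Nat.bitIndices_two_pow]; rfl
    have b3 : (Nat.bitIndices 3).length = 2 := by
      rw [show (3 : ℕ) = 2 * 1 + 1 from rfl, Nat.bitIndices_two_mul_add_one, show (1 : ℕ) = 2 ^ 0 from rfl,
        Nat.bitIndices_two_pow]; rfl
    rw [show 4 * k = 2 * (2 * k) by ring]
    interval_cases j
    · simp
    · simp [Nat.bitIndices_two_mul_add_one, Nat.bitIndices_two_mul, Nat.bitIndices_one]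
    · rw [show 2 * (2 * k) + 2 = 2 * (2 * k + 1) by ring]
      simp [Nat.bitIndices_two_mul_add_one, Nat.bitIndices_two_mul, b2, b3]
    · rw [show 2 * (2 * k) + 3 = 2 * (2 * k + 1) + 1 by ring]
      simp [Nat.bitIndices_two_mul_add_one, Nat.bitIndices_two_mul, b2, b3]
  obtain ⟨P0⟩ : Nonempty (Sylow 2 (Perm (Fin (4 * k)))) := inferInstance
  obtain ⟨Q0⟩ : Nonempty (Sylow 2 (alternatingGroup (Fin (4 * k)))) := inferInstance
  obtain ⟨hP1, hP2⟩ := exists_product (4 * k) (dvd_mul_right 4 k) P0 Q0 (by omega)
  let e := (finSumFinEquiv (m := 4 * k) (n := j))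
  by_cases hj2 : j < 2
  · let f : alternatingGroup (Fin (4 * k)) →* alternatingGroup (Fin (4 * k + j)) :=
      (e.permCongrHom.toMonoidHom.comp ((Perm.sumCongrHom (Fin (4 * k)) (Fin j)).comp
        (MonoidHom.prod (alternatingGroup _).subtype 1))).codRestrict _ fun u =>
        Perm.mem_alternatingGroup.2 (by
          show Perm.sign (e.permCongr (Perm.sumCongr u.1 1)) = 1
          rw [Perm.sign_permCongr, Perm.sign_sumCongr, map_one, mul_one]; exact u.2)
    have hf : Function.Injective f := fun u v h => by
      have h1 := Perm.sumCongrHom_injective (e.permCongrHom.injective (congrArg Subtype.val h :))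
      exact Subtype.ext (congrArg Prod.fst h1 :)
    have hl : j.bitIndices.length = j := by interval_cases j <;> simp
    obtain ⟨eQ⟩ := sylow_transfer f hf (by omega) Q0 P
    have hiff : Decomp (P : Subgroup (alternatingGroup (Fin (4 * k + j)))) ↔ k = 1 := by
      constructor
      · intro hd
        by_contra hk1
        have hd' := decomp_congr eQ.symm hd
        by_cases h2 : 2 ≤ (4 * k).bitIndices.length
        · exact (hP2 h2).2 hd'
        obtain ⟨r, hr⟩ := hpow.1 (by omega)
        have h3 : 3 ≤ r := by
          by_contra hlt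
          have : 2 ^ r ≤ 2 ^ 2 := Nat.pow_le_pow_right two_pos (by omega)
          omega
        obtain ⟨s, rfl⟩ : ∃ s, r = s + 3 := ⟨r - 3, by omega⟩
        exact alt_power s hr Q0 hd'
      · rintro rfl
        exact decomp_congr eQ (alt_four Q0)
    rw [hiff]
    constructor
    · rintro rfl; interval_cases j <;> simp
    · rintro (h | h | ⟨h, -⟩) <;> omega
  · have hl : j.bitIndices.length + 1 = j := by
      interval_cases j
      · rw [show (2 : ℕ) = 2 ^ 1 from rfl, Nat.bitIndices_two_pow]; rfl
      · rw [show (3 : ℕ) = 2 * 1 + 1 from rfl, Nat.bitIndices_two_mul_add_one, show (1 : ℕ) = 2 ^ 0 from rfl,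
          Nat.bitIndices_two_pow]; rfl
    let φ : ℤˣ →* Perm (Fin j) :=
      { toFun := fun u => if u = 1 then 1 else Equiv.swap ⟨0, by omega⟩ ⟨1, by omega⟩
        map_one' := if_pos rfl
        map_mul' := fun u v => by
          rcases Int.units_eq_one_or u with rfl | rfl <;> rcases Int.units_eq_one_or v with rfl | rfl <;> simp }
    have hφ : ∀ u, Perm.sign (φ u) = u := fun u => by
      rcases Int.units_eq_one_or u with rfl | rfl
      · simp
      · show Perm.sign (if ((-1 : ℤˣ) = 1) then 1 else Equiv.swap _ _) = _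
        rw [if_neg (by decide), Perm.sign_swap (by simp)]
    let f : Perm (Fin (4 * k)) →* alternatingGroup (Fin (4 * k + j)) :=
      (e.permCongrHom.toMonoidHom.comp ((Perm.sumCongrHom (Fin (4 * k)) (Fin j)).comp
        (MonoidHom.prod (MonoidHom.id _) (φ.comp Perm.sign)))).codRestrict _ fun u =>
        Perm.mem_alternatingGroup.2 (by
          show Perm.sign (e.permCongr (Perm.sumCongr u (φ (Perm.sign u)))) = 1
          rw [Perm.sign_permCongr, Perm.sign_sumCongr, hφ]; exact Int.units_mul_self _)
    have hf : Function.Injective f := fun u v h => by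
      have h1 := Perm.sumCongrHom_injective (e.permCongrHom.injective (congrArg Subtype.val h :))
      exact (congrArg Prod.fst h1 :)
    obtain ⟨eP⟩ := sylow_transfer f hf (by rw [card_perm_fin]; omega) P0 P
    have hiff : Decomp (P : Subgroup (alternatingGroup (Fin (4 * k + j)))) ↔ ∀ r : ℕ, 4 * k ≠ 2 ^ r := by
      constructor
      · intro hd r hr
        exact hP1 (hpow.2 ⟨r, hr⟩) (decomp_congr eP.symm hd)
      · intro h
        refine decomp_congr eP (hP2 ?_).1
        rcases Nat.lt_or_ge (4 * k).bitIndices.length 2 with hlt | hge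
        · obtain ⟨r, hr⟩ := hpow.1 (by omega)
          exact absurd hr (h r)
        · exact hge
    rw [hiff]
    constructor
    · exact fun h => Or.inr (Or.inr ⟨by omega, h⟩)
    · rintro (h | h | ⟨-, h⟩)
      · omega
      · omega
      · exact h

end CfsgLib.AltSylowDecomp
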